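import Cfsg.Agent.H179.RC.SlQ
import Cfsg.Agent.H106.RC.Use
import Cfsg.Agent.H106.RC.Ari
import Cfsg.Agent.H297.RC.LR

/-!
# S3510, box B: the stabiliser of two complementary totally singular subspaces
-/

set_option autoImplicit false
open Cfsg

namespace Cfsg.Agent.H179.RC

open QuadraticMap MulAction Matrix
open Cfsg.Agent.LieClassical.OrthCore Cfsg.Agent.LieClassical.OrthTrans
open Cfsg.Agent.LieClassical.OrthSimple Cfsg.Agent.ClassicalGeometry.OrthSemi
open Cfsg.Agent.ClassicalGeometry.OrthAut1 Cfsg.Agent.H106.RC Cfsg.Agent.H93.RC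
open Cfsg.Agent.LieClassical.SLGen
open scoped commutatorElement

section rep

variable {F V : Type*} [Field F] [AddCommGroup V] [Module F V] {Q : QuadraticForm F V}
variable {G : Type*} [Group G]

/-- the isomorphism of `N` with `P Q` -/
theorem rep_equiv {N : Subgroup G} {ρ : ↥(E Q) →* G} (hρ : Rep Q N ρ) : Nonempty (N ≃* P Q) := by
  have hmem : ∀ t, ρ t ∈ N := fun t => by rw [← hρ.range]; exact ⟨t, rfl⟩
  let ρN : ↥(E Q) →* N := ρ.codRestrict N hmem
  have hρNs : Function.Surjective ρN := by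
    rintro ⟨n, hn⟩
    have hn' := hn
    rw [← hρ.range] at hn'
    obtain ⟨t, ht⟩ := hn'
    exact ⟨t, Subtype.ext ht⟩
  have hρNk : ρN.ker = Subgroup.center ↥(E Q) := by
    rw [← hρ.ker]
    ext t
    rw [MonoidHom.mem_ker, MonoidHom.mem_ker]
    exact ⟨fun h => congrArg Subtype.val h, fun h => Subtype.ext h⟩
  exact ⟨((QuotientGroup.quotientMulEquivOfEq hρNk.symm).trans
    (QuotientGroup.quotientKerEquivOfSurjective ρN hρNs)).symm⟩

/-- elements of the centre are scalars -/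
theorem center_scal (hG : Good Q) {t : ↥(E Q)} (ht : t ∈ Subgroup.center ↥(E Q)) :
    ∃ a : F, a ≠ 0 ∧ ∀ v, (t : V ≃ₗ[F] V) v = a • v := by
  refine exists_scalar_of_conjE hG (tg Q t) ?_
  ext s : 1
  rw [conjE_tg, ← Subgroup.mem_center_iff.1 ht s, mul_inv_cancel_right]
  rfl

/-- two homomorphisms of a perfect group which agree modulo the centre agree -/
theorem hom_eq_of_perfect {X Y : Type*} [Group X] [Group Y] (hX : commutator X = ⊤) (f g : X →* Y)
    (h : ∀ s, f s * (g s)⁻¹ ∈ Subgroup.center Y) : f = g := by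
  have h1 : commutator X ≤ f.eqLocus g := by
    rw [commutator_def, Subgroup.commutator_le]
    intro s _ t _
    show f ⁅s, t⁆ = g ⁅s, t⁆
    obtain ⟨z, hz, hz'⟩ : ∃ z ∈ Subgroup.center Y, f s = z * g s := ⟨_, h s, by group⟩
    obtain ⟨w, hw, hw'⟩ : ∃ w ∈ Subgroup.center Y, f t = w * g t := ⟨_, h t, by group⟩
    rw [map_commutatorElement, map_commutatorElement, hz', hw', commutatorElement_def, commutatorElement_def]
    have c1 : ∀ y, z * y = y * z := fun y => (Subgroup.mem_center_iff.1 hz y).symm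
    have c2 : ∀ y, w * y = y * w := fun y => (Subgroup.mem_center_iff.1 hw y).symm
    calc z * g s * (w * g t) * (z * g s)⁻¹ * (w * g t)⁻¹
        = z * (g s * w) * g t * ((g s)⁻¹ * z⁻¹) * ((g t)⁻¹ * w⁻¹) := by group
      _ = z * (w * g s) * g t * ((g s)⁻¹ * z⁻¹) * ((g t)⁻¹ * w⁻¹) := by rw [c2 (g s)]
      _ = z * (w * (g s * g t * (g s)⁻¹ * z⁻¹ * (g t)⁻¹)) * w⁻¹ := by group
      _ = z * ((g s * g t * (g s)⁻¹ * z⁻¹ * (g t)⁻¹) * w) * w⁻¹ := by rw [c2]
      _ = (z * (g s * g t * (g s)⁻¹)) * z⁻¹ * (g t)⁻¹ := by group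
      _ = ((g s * g t * (g s)⁻¹) * z) * z⁻¹ * (g t)⁻¹ := by rw [c1]
      _ = g s * g t * (g s)⁻¹ * (g t)⁻¹ := by group
  apply MonoidHom.ext
  intro s
  have h2 : s ∈ commutator X := by rw [hX]; trivial
  exact h1 h2

end rep

section mrule

/-- **The M-rule for a homomorphism** (helper433). -/
theorem mrule_hom {G S X Ω ι : Type} [Group G] [Finite G] [Group S] [Finite S] [Group X] [Finite X] [MulAction G Ω]
    [Finite ι] (hIH : IH (Nat.card S)) {N : Subgroup G} (e : N ≃* S) (f : X →* G) (hN : f.range ≤ N)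
    (hne : f.range ≠ N) (hker : ∀ s, f s = 1 → s ∈ Subgroup.center X) (hperf : commutator X = ⊤)
    (h1 : IsSimpleGroup (X ⧸ Subgroup.center X)) (h2 : ¬ IsMulCommutative (X ⧸ Subgroup.center X))
    (h3 : Cl (X ⧸ Subgroup.center X)) (h4 : ¬ Exc (X ⧸ Subgroup.center X))
    {x : ι → G} {r : ι → ℕ} (hx : PF x r) (hcov : Cov Ω x) (hnorm : ∀ i s, ∃ s', x i * f s * (x i)⁻¹ = f s') (ω : Ω) :
    (∀ s, f s • ω = ω) ∨ ∃ i, (∀ s, x i * f s = f s * x i) ∧ x i • ω = ω := by
  set K : Subgroup G := f.range with hK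
  have hKperf : ⁅K, K⁆ = K := by
    have h3 := Subgroup.map_commutator (⊤ : Subgroup X) ⊤ f
    rw [← commutator_def, hperf, ← MonoidHom.range_eq_map] at h3
    exact h3.symm
  have hlift : ∀ m : K, ∃ s, f s = m := fun m => m.2
  let π : K →* X ⧸ Subgroup.center X :=
    { toFun := fun m => QuotientGroup.mk (hlift m).choose
      map_one' := by
        rw [QuotientGroup.eq_one_iff]
        exact hker _ (hlift 1).choose_spec
      map_mul' := fun m n => by
        rw [← QuotientGroup.mk_mul, QuotientGroup.eq]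
        apply hker
        rw [map_mul, map_inv, map_mul, (hlift _).choose_spec, (hlift _).choose_spec, (hlift _).choose_spec]
        rw [Subgroup.coe_mul]
        group }
  have hπ : ∀ s, π ⟨f s, s, rfl⟩ = QuotientGroup.mk s := by
    intro s
    show QuotientGroup.mk (hlift ⟨f s, s, rfl⟩).choose = _
    rw [QuotientGroup.eq]
    apply hker
    rw [map_mul, map_inv, (hlift _).choose_spec, inv_mul_cancel]
  have hπs : Function.Surjective π := by
    intro y
    obtain ⟨s, rfl⟩ := QuotientGroup.mk_surjective y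
    exact ⟨_, hπ s⟩
  have hπk : π.ker ≤ Subgroup.center K := by
    rintro ⟨_, s, rfl⟩ hs
    rw [MonoidHom.mem_ker] at hs
    rw [hπ, QuotientGroup.eq_one_iff] at hs
    rw [Subgroup.mem_center_iff]
    rintro ⟨_, t, rfl⟩
    apply Subtype.ext
    show f t * f s = f s * f t
    rw [← map_mul, ← map_mul, Subgroup.mem_center_iff.1 hs]
  have hnK : ∀ i, x i ∈ Subgroup.normalizer (K : Set G) := by
    intro i
    have h3 : ∀ m ∈ K, x i * m * (x i)⁻¹ ∈ K := by
      rintro _ ⟨s, rfl⟩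
      obtain ⟨s', hs'⟩ := hnorm i s
      exact ⟨s', hs'.symm⟩
    rw [Subgroup.mem_normalizer_iff]
    intro m
    refine ⟨fun hm => h3 m hm, fun hm => ?_⟩
    have h4 : ∀ n : ℕ, x i ^ n * (x i * m * (x i)⁻¹) * (x i ^ n)⁻¹ ∈ K := by
      intro n
      induction n with
      | zero => simpa using hm
      | succ n ih =>
        have h5 := h3 _ ih
        have h6 : x i * (x i ^ n * (x i * m * (x i)⁻¹) * (x i ^ n)⁻¹) * (x i)⁻¹ =
            x i ^ (n + 1) * (x i * m * (x i)⁻¹) * (x i ^ (n + 1))⁻¹ := by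
          rw [pow_succ']
          group
        rwa [h6] at h5
    obtain ⟨n, hn⟩ : ∃ n, r i = n + 1 := ⟨r i - 1, by have := (hx.prime i).pos; omega⟩
    have h4 := h4 n
    have h5 : x i ^ n = (x i)⁻¹ := by
      rw [eq_inv_iff_mul_eq_one, ← pow_succ, ← hn]
      exact hx.pow i
    rw [h5] at h4
    have h6 : (x i)⁻¹ * (x i * m * (x i)⁻¹) * ((x i)⁻¹)⁻¹ = m := by group
    rwa [h6] at h4
  rcases mrule_IH hIH e hN hne hKperf π hπs hπk h1 h2 h3 h4 hx hcov hnK ω with h5 | ⟨i, h5, h6⟩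
  · exact Or.inl fun s => h5 ⟨s, rfl⟩
  · exact Or.inr ⟨i, fun s => h5 _ ⟨s, rfl⟩, h6⟩

end mrule

section psl

/-- the facts about `PSL` -/
theorem psl_facts {F : Type} [Field F] [Finite F] {k : ℕ} (hk : 4 ≤ k) (h42 : ¬ (Nat.card F = 2 ∧ k = 4)) :
    commutator (SpecialLinearGroup (Fin k) F) = ⊤ ∧
      IsSimpleGroup (SpecialLinearGroup (Fin k) F ⧸ Subgroup.center (SpecialLinearGroup (Fin k) F)) ∧
      ¬ IsMulCommutative (SpecialLinearGroup (Fin k) F ⧸ Subgroup.center (SpecialLinearGroup (Fin k) F)) ∧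
      Cl (SpecialLinearGroup (Fin k) F ⧸ Subgroup.center (SpecialLinearGroup (Fin k) F)) ∧
      ¬ Exc (SpecialLinearGroup (Fin k) F ⧸ Subgroup.center (SpecialLinearGroup (Fin k) F)) := by
  have hcard : 3 ≤ Fintype.card (Fin k) := by rw [Fintype.card_fin]; omega
  have hperf : commutator (SpecialLinearGroup (Fin k) F) = ⊤ := commutator_eq_top hcard
  have hsimp : IsSimpleGroup (SpecialLinearGroup (Fin k) F ⧸ Subgroup.center (SpecialLinearGroup (Fin k) F)) :=
    psl_isSimpleGroup hcard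
  have hfin : Fintype F := Fintype.ofFinite F
  refine ⟨hperf, hsimp, ?_, ?_, ?_⟩
  · intro hc
    have h1 : commutator (SpecialLinearGroup (Fin k) F) ≤ Subgroup.center (SpecialLinearGroup (Fin k) F) := by
      rw [commutator_def, Subgroup.commutator_le]
      intro a _ b _
      rw [← QuotientGroup.eq_one_iff]
      have h2 : (QuotientGroup.mk' (Subgroup.center (SpecialLinearGroup (Fin k) F))) ⁅a, b⁆ = 1 := by
        rw [map_commutatorElement, commutatorElement_eq_one_iff_mul_comm]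
        exact hc.is_comm.comm _ _
      exact h2
    rw [hperf] at h1
    have h3 := hsimp.toNontrivial
    obtain ⟨y, hy⟩ := exists_ne (1 : SpecialLinearGroup (Fin k) F ⧸ Subgroup.center (SpecialLinearGroup (Fin k) F))
    obtain ⟨s, rfl⟩ := QuotientGroup.mk_surjective y
    exact hy ((QuotientGroup.eq_one_iff s).2 (h1 trivial))
  · exact Or.inl ⟨F, inferInstance, hfin, k, by omega, fun h => by omega, ⟨MulEquiv.refl _⟩⟩
  · intro h
    rcases psl_exc (F := F) (n := k) (by omega) h with ⟨h1, -⟩ | ⟨h1, h2⟩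
    · omega
    · exact h42 ⟨by rw [Nat.card_eq_fintype_card, h2], h1⟩

end psl

section conj

variable {F V : Type*} [Field F] [AddCommGroup V] [Module F V]
  {Q : QuadraticForm F V} {κ : Type*} [Fintype κ] [DecidableEq κ]
  {Φ : V ≃ₗ[F] (κ → F) × (κ → F)}

omit [DecidableEq κ] [Fintype κ] in
theorem split (Φ : V ≃ₗ[F] (κ → F) × (κ → F)) (v : V) :
    v = Φ.symm ((Φ v).1, 0) + Φ.symm (0, (Φ v).2) := by
  rw [← map_add, Prod.mk_add_mk, add_zero, zero_add, Prod.mk.eta, LinearEquiv.symm_apply_apply]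

theorem slE_symm1 (hΦ : HC Q Φ) (A : SpecialLinearGroup κ F) (x : κ → F) :
    (slE hΦ A : V ≃ₗ[F] V) (Φ.symm (x, 0)) = Φ.symm (A.1 *ᵥ x, 0) := by
  apply Φ.injective
  rw [slE_apply, LinearEquiv.apply_symm_apply, LinearEquiv.apply_symm_apply, Matrix.mulVec_zero]

theorem slE_symm2 (hΦ : HC Q Φ) (A : SpecialLinearGroup κ F) (y : κ → F) :
    (slE hΦ A : V ≃ₗ[F] V) (Φ.symm (0, y)) = Φ.symm (0, ((A⁻¹).1)ᵀ *ᵥ y) := by
  apply Φ.injective
  rw [slE_apply, LinearEquiv.apply_symm_apply, LinearEquiv.apply_symm_apply, Matrix.mulVec_zero]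

/-- linear semisimilitudes preserving the two summands normalise the image of `SL` -/
theorem conj_slE (hΦ : HC Q Φ) (M : Gam Q) (hM : IsLin M)
    (hi : ∀ x, (Φ (M.1 (Φ.symm (x, 0)))).2 = 0) (hi' : ∀ y, (Φ (M.1 (Φ.symm (0, y)))).1 = 0)
    (A : SpecialLinearGroup κ F) : ∃ A', conjE Q M (slE hΦ A) = slE hΦ A' := by
  have hadd : ∀ u v, M.1 (u + v) = M.1 u + M.1 v := add_of_mem M.2
  have hM0 : M.1 0 = 0 := by
    have := hM 0 0
    rwa [zero_smul, zero_smul] at this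
  let m : (κ → F) →ₗ[F] (κ → F) :=
    { toFun := fun x => (Φ (M.1 (Φ.symm (x, 0)))).1
      map_add' := fun x y => by
        have h1 : ((x + y, 0) : (κ → F) × (κ → F)) = (x, 0) + (y, 0) := by
          rw [Prod.mk_add_mk, add_zero]
        rw [h1, map_add, hadd, map_add]
        rfl
      map_smul' := fun c x => by
        have h1 : ((c • x, 0) : (κ → F) × (κ → F)) = c • (x, 0) := by
          rw [Prod.smul_mk, smul_zero]
        rw [h1, map_smul, hM, map_smul]
        rfl }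
  have hm : ∀ x, M.1 (Φ.symm (x, 0)) = Φ.symm (m x, 0) := by
    intro x
    apply Φ.injective
    rw [LinearEquiv.apply_symm_apply]
    exact Prod.ext rfl (hi x)
  have hinj : Function.Injective m := by
    rw [injective_iff_map_eq_zero]
    intro x h0
    have h1 := hm x
    rw [h0, Prod.mk_zero_zero, map_zero, ← hM0] at h1
    have h2 := M.1.injective h1
    rw [LinearEquiv.map_eq_zero_iff] at h2
    exact congrArg Prod.fst h2
  let me : (κ → F) ≃ₗ[F] (κ → F) := LinearEquiv.ofInjectiveEndo m hinj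
  have hme : ∀ x, me x = m x := fun x => rfl
  let B : Matrix κ κ F := LinearMap.toMatrix' ((me : (κ → F) →ₗ[F] (κ → F)) ∘ₗ (Matrix.toLin' A.1) ∘ₗ
    (me.symm : (κ → F) →ₗ[F] (κ → F)))
  have hB : B.det = 1 := by
    rw [LinearMap.det_toMatrix', LinearMap.det_conj, LinearMap.det_toLin']
    exact A.2
  have hBv : ∀ x, B *ᵥ (m x) = m (A.1 *ᵥ x) := by
    intro x
    rw [LinearMap.toMatrix'_mulVec, ← hme, LinearMap.comp_apply, LinearMap.comp_apply]
    show me (Matrix.toLin' A.1 (me.symm (me x))) = me (A.1 *ᵥ x)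
    rw [LinearEquiv.symm_apply_apply, Matrix.toLin'_apply]
  obtain ⟨A', hA'⟩ : ∃ A' : SpecialLinearGroup κ F, A'.1 = B := ⟨⟨B, hB⟩, rfl⟩
  rw [← hA'] at hBv
  refine ⟨A', ?_⟩
  have key : (slE hΦ A')⁻¹ * conjE Q M (slE hΦ A) = 1 := by
    apply Subtype.ext
    apply eq_one_of_fix hΦ
    · exact E_le_O (((slE hΦ A')⁻¹ * conjE Q M (slE hΦ A)).2)
    · intro x
      obtain ⟨x, rfl⟩ := me.surjective x
      rw [hme]
      show ((slE hΦ A')⁻¹ : ↥(E Q)).1 (conjLin M (slE hΦ A).1 (Φ.symm (m x, 0))) = _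
      rw [← hm, conjLin_apply', slE_symm1, hm, hm, ← hBv]
      have h1 := slE_symm1 hΦ A' (m x)
      rw [← h1]
      exact LinearEquiv.symm_apply_apply _ _
    · intro y
      obtain ⟨u, hu⟩ := M.1.surjective (Φ.symm (0, y))
      have h1 : (Φ u).1 = 0 := by
        have h2 := congrArg (fun z => (Φ z).1) hu
        rw [split Φ u, hadd] at h2
        simp only [map_add, Prod.fst_add, hi', hm, LinearEquiv.apply_symm_apply, add_zero] at h2
        exact hinj (by rw [h2, map_zero])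
      have h3 : u = Φ.symm (0, (Φ u).2) := by
        conv_lhs => rw [split Φ u, h1, Prod.mk_zero_zero, map_zero, zero_add]
      show (Φ (((slE hΦ A')⁻¹ : ↥(E Q)).1 (conjLin M (slE hΦ A).1 (Φ.symm (0, y))))).1 = 0
      rw [← hu, conjLin_apply', h3, slE_symm2, ← map_inv, slE_apply, hi', Matrix.mulVec_zero]
  rw [inv_mul_eq_one] at key
  exact key.symm

variable {G : Type*} [Group G] {N : Subgroup G} {ρ : ↥(E Q) →* G}

/-- a member centralising the image of `SL` is linear over `SL` -/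
theorem cent_slE (hΦ : HC Q Φ) (hρ : Rep Q N ρ) {x : G} {M : Gam Q} (hl : Lf ρ x M)
    (hperf : commutator (SpecialLinearGroup κ F) = ⊤) (hc : ∀ s, x * ρ (slE hΦ s) = ρ (slE hΦ s) * x)
    (s : SpecialLinearGroup κ F) (v : V) :
    M.1 ((slE hΦ s : V ≃ₗ[F] V) v) = (slE hΦ s : V ≃ₗ[F] V) (M.1 v) := by
  have h1 : (conjE Q M).toMonoidHom.comp (slE hΦ) = slE hΦ := by
    apply hom_eq_of_perfect hperf
    intro s
    rw [← hρ.ker, MonoidHom.mem_ker, map_mul, map_inv]
    show ρ (conjE Q M (slE hΦ s)) * (ρ (slE hΦ s))⁻¹ = 1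
    rw [← hl, hc s]
    group
  have h2 : conjE Q M (slE hΦ s) = slE hΦ s := DFunLike.congr_fun h1 s
  have h3 : conjLin M (slE hΦ s).1 = (slE hΦ s).1 := congrArg Subtype.val h2
  rw [← conjLin_apply', h3]

theorem scal1 (hΦ : HC Q Φ) {M : Gam Q} (hi : ∀ x, (Φ (M.1 (Φ.symm (x, 0)))).2 = 0)
    (hc : ∀ s v, M.1 ((slE hΦ s : V ≃ₗ[F] V) v) = (slE hΦ s : V ≃ₗ[F] V) (M.1 v)) {i j : κ} (h : i ≠ j) :
    M.1 (Φ.symm (Pi.single i 1, 0)) =
      (Φ (M.1 (Φ.symm (Pi.single j 1, 0)))).1 j • Φ.symm (Pi.single i 1, 0) := by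
  have hadd : ∀ u v, M.1 (u + v) = M.1 u + M.1 v := add_of_mem M.2
  set a := (Φ (M.1 (Φ.symm (Pi.single j 1, 0)))).1 with ha
  have h0 : M.1 (Φ.symm (Pi.single j 1, 0)) = Φ.symm (a, 0) := by
    apply Φ.injective
    rw [LinearEquiv.apply_symm_apply]
    exact Prod.ext rfl (hi _)
  have h1 := hc (SpecialLinearGroup.transvection h 1) (Φ.symm (Pi.single j 1, 0))
  rw [h0, slE_symm1, slE_symm1, trans_mulVec, trans_mulVec, Pi.single_eq_same, one_mul, one_smul, one_mul] at h1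
  have h2 : ((Pi.single j 1 + Pi.single i 1, 0) : (κ → F) × (κ → F)) = (Pi.single j 1, 0) + (Pi.single i 1, 0) := by
    rw [Prod.mk_add_mk, add_zero]
  have h3 : ((a + a j • Pi.single i 1, 0) : (κ → F) × (κ → F)) = (a, 0) + a j • (Pi.single i 1, 0) := by
    rw [Prod.smul_mk, smul_zero, Prod.mk_add_mk, add_zero]
  rw [h2, h3, map_add Φ.symm, map_add Φ.symm, hadd, h0, map_smul] at h1
  exact add_left_cancel h1

theorem scal2 (hΦ : HC Q Φ) {M : Gam Q} (hi' : ∀ y, (Φ (M.1 (Φ.symm (0, y)))).1 = 0)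
    (hc : ∀ s v, M.1 ((slE hΦ s : V ≃ₗ[F] V) v) = (slE hΦ s : V ≃ₗ[F] V) (M.1 v)) {i j : κ} (h : i ≠ j) :
    M.1 (Φ.symm (0, Pi.single j 1)) =
      (Φ (M.1 (Φ.symm (0, Pi.single i 1)))).2 i • Φ.symm (0, Pi.single j 1) := by
  have hadd : ∀ u v, M.1 (u + v) = M.1 u + M.1 v := add_of_mem M.2
  have hsub : ∀ u v, M.1 (u - v) = M.1 u - M.1 v := by
    intro u v
    have := hadd (u - v) v
    rw [sub_add_cancel] at this
    rw [this, add_sub_cancel_right]
  set b := (Φ (M.1 (Φ.symm (0, Pi.single i 1)))).2 with hb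
  have h0 : M.1 (Φ.symm (0, Pi.single i 1)) = Φ.symm (0, b) := by
    apply Φ.injective
    rw [LinearEquiv.apply_symm_apply]
    exact Prod.ext (hi' _) rfl
  have h1 := hc (SpecialLinearGroup.transvection h 1) (Φ.symm (0, Pi.single i 1))
  rw [h0, slE_symm2, slE_symm2, trans_inv_mulVec, trans_inv_mulVec, Pi.single_eq_same, one_mul, one_smul, one_mul] at h1
  have h2 : ((0, Pi.single i 1 - Pi.single j 1) : (κ → F) × (κ → F)) = (0, Pi.single i 1) - (0, Pi.single j 1) := by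
    rw [Prod.mk_sub_mk, sub_zero]
  have h3 : ((0, b - b i • Pi.single j 1) : (κ → F) × (κ → F)) = (0, b) - b i • (0, Pi.single j 1) := by
    rw [Prod.smul_mk, smul_zero, Prod.mk_sub_mk, sub_zero]
  rw [h2, h3, map_sub Φ.symm, map_sub Φ.symm, hsub, h0, map_smul] at h1
  exact sub_right_injective h1

/-- the lift of a member centralising the image of `SL` is scalar on each summand -/
theorem scal12 (hΦ : HC Q Φ) (hκ : 3 ≤ Fintype.card κ) {M : Gam Q} (hM : IsLin M)
    (hi : ∀ x, (Φ (M.1 (Φ.symm (x, 0)))).2 = 0) (hi' : ∀ y, (Φ (M.1 (Φ.symm (0, y)))).1 = 0)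
    (hc : ∀ s v, M.1 ((slE hΦ s : V ≃ₗ[F] V) v) = (slE hΦ s : V ≃ₗ[F] V) (M.1 v)) :
    ∃ a b : F, (∀ x, M.1 (Φ.symm (x, 0)) = a • Φ.symm (x, 0)) ∧ ∀ y, M.1 (Φ.symm (0, y)) = b • Φ.symm (0, y) := by
  have hadd : ∀ u v, M.1 (u + v) = M.1 u + M.1 v := add_of_mem M.2
  have hM0 : M.1 0 = 0 := by
    have := hM 0 0
    rwa [zero_smul, zero_smul] at this
  have hnt : Nontrivial κ := Fintype.one_lt_card_iff_nontrivial.1 (by omega)
  have hthird : ∀ i j : κ, ∃ k, k ≠ i ∧ k ≠ j := by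
    intro i j
    obtain ⟨k, hk⟩ : ∃ k : κ, k ∉ ({i, j} : Finset κ) := by
      by_contra hcon
      push Not at hcon
      have h1 : (Finset.univ : Finset κ) ⊆ {i, j} := fun x _ => hcon x
      have h2 := Finset.card_le_card h1
      have h3 := Finset.card_le_two (a := i) (b := j)
      rw [Finset.card_univ] at h2
      omega
    simp only [Finset.mem_insert, Finset.mem_singleton, not_or] at hk
    exact ⟨k, hk⟩
  obtain ⟨o⟩ : Nonempty κ := inferInstance
  let α : κ → F := fun j => (Φ (M.1 (Φ.symm (Pi.single j 1, 0)))).1 j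
  let β : κ → F := fun j => (Φ (M.1 (Φ.symm (0, Pi.single j 1)))).2 j
  have h1 : ∀ i j : κ, i ≠ j → M.1 (Φ.symm (Pi.single i 1, 0)) = α j • Φ.symm (Pi.single i 1, 0) :=
    fun i j h => scal1 hΦ hi hc h
  have h2 : ∀ i j : κ, i ≠ j → M.1 (Φ.symm (0, Pi.single j 1)) = β i • Φ.symm (0, Pi.single j 1) :=
    fun i j h => scal2 hΦ hi' hc h
  have hα : ∀ i j : κ, i ≠ j → α i = α j := by
    intro i j h
    have h3 := h1 i j h
    show (Φ (M.1 (Φ.symm (Pi.single i 1, 0)))).1 i = α j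
    rw [h3, map_smul, LinearEquiv.apply_symm_apply]
    show α j • (Pi.single i (1 : F) : κ → F) i = α j
    rw [Pi.single_eq_same, smul_eq_mul, mul_one]
  have hβ : ∀ i j : κ, i ≠ j → β j = β i := by
    intro i j h
    have h3 := h2 i j h
    show (Φ (M.1 (Φ.symm (0, Pi.single j 1)))).2 j = β i
    rw [h3, map_smul, LinearEquiv.apply_symm_apply]
    show β i • (Pi.single j (1 : F) : κ → F) j = β i
    rw [Pi.single_eq_same, smul_eq_mul, mul_one]
  have h1' : ∀ i : κ, M.1 (Φ.symm (Pi.single i 1, 0)) = α o • Φ.symm (Pi.single i 1, 0) := by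
    intro i
    obtain ⟨k, hk1, hk2⟩ := hthird i o
    rw [h1 i k hk1.symm, hα k o hk2]
  have h2' : ∀ i : κ, M.1 (Φ.symm (0, Pi.single i 1)) = β o • Φ.symm (0, Pi.single i 1) := by
    intro i
    obtain ⟨k, hk1, hk2⟩ := hthird i o
    rw [h2 k i hk1, ← hβ o k hk2.symm]
  refine ⟨α o, β o, ?_, ?_⟩
  · intro x
    have h3 : ∀ s : Finset κ, M.1 (Φ.symm (∑ i ∈ s, x i • Pi.single i (1 : F), 0)) =
        α o • Φ.symm (∑ i ∈ s, x i • Pi.single i (1 : F), 0) := by
      intro s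
      induction s using Finset.induction_on with
      | empty =>
        rw [Finset.sum_empty, Prod.mk_zero_zero, map_zero, hM0, smul_zero]
      | insert i s hi ih =>
        rw [Finset.sum_insert hi]
        have h4 : ((x i • Pi.single i (1 : F) + ∑ i ∈ s, x i • Pi.single i (1 : F), 0) : (κ → F) × (κ → F)) =
            x i • (Pi.single i (1 : F), 0) + (∑ i ∈ s, x i • Pi.single i (1 : F), 0) := by
          rw [Prod.smul_mk, smul_zero, Prod.mk_add_mk, add_zero]
        rw [h4, map_add Φ.symm, hadd, ih, map_smul, hM, h1', smul_add, smul_comm]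
    have h5 : x = ∑ i, x i • Pi.single i (1 : F) := by
      funext k
      simp [Finset.sum_apply, Pi.single_apply]
    rw [h5]
    exact h3 _
  · intro x
    have h3 : ∀ s : Finset κ, M.1 (Φ.symm (0, ∑ i ∈ s, x i • Pi.single i (1 : F))) =
        β o • Φ.symm (0, ∑ i ∈ s, x i • Pi.single i (1 : F)) := by
      intro s
      induction s using Finset.induction_on with
      | empty =>
        rw [Finset.sum_empty, Prod.mk_zero_zero, map_zero, hM0, smul_zero]
      | insert i s hi ih =>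
        rw [Finset.sum_insert hi]
        have h4 : ((0, x i • Pi.single i (1 : F) + ∑ i ∈ s, x i • Pi.single i (1 : F)) : (κ → F) × (κ → F)) =
            x i • (0, Pi.single i (1 : F)) + (0, ∑ i ∈ s, x i • Pi.single i (1 : F)) := by
          rw [Prod.smul_mk, smul_zero, Prod.mk_add_mk, add_zero]
        rw [h4, map_add Φ.symm, hadd, ih, map_smul, hM, h2', smul_add, smul_comm]
    have h5 : x = ∑ i, x i • Pi.single i (1 : F) := by
      funext k
      simp [Finset.sum_apply, Pi.single_apply]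
    rw [h5]
    exact h3 _

end conj

section final

variable {F V : Type} [Field F] [Finite F] [AddCommGroup V] [Module F V] [FiniteDimensional F V]
  {Q : QuadraticForm F V} {G Ω : Type} [Group G] [Finite G] [MulAction G Ω] [Nonempty Ω]
  {N : Subgroup G} {ρ : ↥(E Q) →* G}

omit [Finite F] [FiniteDimensional F V] in
/-- powers of a lift scalar on a summand -/
theorem pow_scal_on {Q : QuadraticForm F V} {M : Gam Q} (hM : IsLin M) {a : F} {v : V} (h : M.1 v = a • v) (n : ℕ) :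
    (M ^ n).1 v = a ^ n • v := by
  induction n with
  | zero => rw [pow_zero, pow_zero, one_smul]; rfl
  | succ n ih =>
    rw [pow_succ']
    show M.1 ((M ^ n).1 v) = _
    rw [ih, hM, h, smul_smul, pow_succ]

omit [Nonempty Ω] in
/-- BOX B, given box F1 (`LR`). -/
theorem box_B_of (hG : Good Q) (hE : Env G Ω N) (hρ : Rep Q N ρ) (hIH : IH (Nat.card (P Q)))
    {p : ℕ} [CharP F p]
    (hLR : ∀ (κ : Type) [Finite κ] {y : κ → G} {L : κ → Gam Q} {s : κ → ℕ}, (∀ i, Lf ρ (y i) (L i)) →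
      (∀ i, (s i).Prime) → (∀ i, s i ≠ p) → (∀ i, y i ^ s i = 1) → (∀ i, y i ≠ 1) →
      (∀ i j, y i * y j = y j * y i) → ∀ {u w : V} (hu : Q u = 0) (_ : Q w = 0) (huw : polar Q u w = 0),
      u ≠ 0 → (∀ a : F, w ≠ a • u) →
      (∀ i, ∀ v ∈ Submodule.span F {u, w}, (L i).1 v ∈ Submodule.span F {u, w}) →
      (∀ ω : Ω, ρ (AutOrth.SemiSim.sg Q u w hu huw) • ω = ω ∨ ∃ i, y i • ω = ω) → False)
    {ι : Type} [Finite ι] {x : ι → G} {M : ι → Gam Q} {r : ι → ℕ}
    (hl : ∀ i, Lf ρ (x i) (M i)) (hlin : ∀ i, IsLin (M i)) (hx : PF x r) (hcov : Cov Ω x)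
    (h8 : 8 ≤ Module.finrank F V) (h82 : ¬ (Nat.card F = 2 ∧ Module.finrank F V = 8))
    (W W' : Submodule F V) (hWW : IsCompl W W') (hW : ∀ v ∈ W, Q v = 0) (hW' : ∀ v ∈ W', Q v = 0)
    (hi : ∀ i, ∀ v ∈ W, (M i).1 v ∈ W) (hi' : ∀ i, ∀ v ∈ W', (M i).1 v ∈ W') : False := by
  classical
  obtain ⟨k, Φ, hΦ, hdim, hWm, hWm'⟩ := exists_HC hG.nondeg W W' hWW hW hW'
  have hk : 4 ≤ k := by omega
  have h42 : ¬ (Nat.card F = 2 ∧ k = 4) := fun h => h82 ⟨h.1, by omega⟩
  obtain ⟨hperf, hs, hnc, hcl, hex⟩ := psl_facts hk h42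
  obtain ⟨e⟩ := rep_equiv hρ
  have hfinP : Finite (P Q) := Finite.of_equiv _ e.toEquiv
  have hi1 : ∀ i x, (Φ ((M i).1 (Φ.symm (x, 0)))).2 = 0 := fun i x =>
    (hWm _).1 (hi i _ ((hWm _).2 (by rw [LinearEquiv.apply_symm_apply])))
  have hi2 : ∀ i y, (Φ ((M i).1 (Φ.symm (0, y)))).1 = 0 := fun i y =>
    (hWm' _).1 (hi' i _ ((hWm' _).2 (by rw [LinearEquiv.apply_symm_apply])))
  let f : SpecialLinearGroup (Fin k) F →* G := ρ.comp (slE hΦ)
  have hnorm : ∀ i s, ∃ s', x i * f s * (x i)⁻¹ = f s' := by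
    intro i s
    obtain ⟨s', hs'⟩ := conj_slE hΦ (M i) (hlin i) (hi1 i) (hi2 i) s
    refine ⟨s', ?_⟩
    show x i * ρ (slE hΦ s) * (x i)⁻¹ = ρ (slE hΦ s')
    rw [hl i, hs']
  have hN : f.range ≤ N := by
    rintro _ ⟨s, rfl⟩
    rw [← hρ.range]
    exact ⟨_, rfl⟩
  have hker : ∀ s, f s = 1 → s ∈ Subgroup.center (SpecialLinearGroup (Fin k) F) := by
    intro s hs
    have h1 : slE hΦ s ∈ Subgroup.center ↥(E Q) := by rw [← hρ.ker]; exact hs
    rw [Subgroup.mem_center_iff]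
    intro t
    apply slE_injective hΦ
    rw [map_mul, map_mul]
    exact Subgroup.mem_center_iff.1 h1 _
  let i0 : Fin k := ⟨0, by omega⟩
  let i1 : Fin k := ⟨1, by omega⟩
  have h01 : i0 ≠ i1 := by
    intro h
    have := congrArg Fin.val h
    simp [i0, i1] at this
  have hne : f.range ≠ N := by
    intro h
    have hu : Q (Φ.symm (0, Pi.single i0 1)) = 0 := sing2 hΦ _
    have hw : Q (Φ.symm (0, Pi.single i1 1)) = 0 := sing2 hΦ _
    have huw : polar Q (Φ.symm (0, Pi.single i0 1)) (Φ.symm (0, Pi.single i1 1)) = 0 := by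
      rw [hΦ.polar, LinearEquiv.apply_symm_apply, LinearEquiv.apply_symm_apply, zero_dotProduct, zero_dotProduct,
        add_zero]
    obtain ⟨s, hs⟩ : ρ (AutOrth.SemiSim.sg Q _ _ hu huw) ∈ f.range := by
      rw [h, ← hρ.range]
      exact ⟨_, rfl⟩
    have h1 : (slE hΦ s)⁻¹ * AutOrth.SemiSim.sg Q _ _ hu huw ∈ Subgroup.center ↥(E Q) := by
      rw [← hρ.ker, MonoidHom.mem_ker, map_mul, map_inv, ← hs]
      exact inv_mul_cancel _
    obtain ⟨a, ha, hsc⟩ := center_scal hG h1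
    have h2 := hsc (Φ.symm (Pi.single i0 1, 0))
    have h3 : (AutOrth.SemiSim.sg Q _ _ hu huw : V ≃ₗ[F] V) (Φ.symm (Pi.single i0 1, 0)) =
        (slE hΦ s : V ≃ₗ[F] V) (a • Φ.symm (Pi.single i0 1, 0)) := by
      rw [← h2]
      exact ((slE hΦ s : V ≃ₗ[F] V).apply_symm_apply _).symm
    rw [map_smul, slE_symm1, AutOrth.SemiSim.sg_apply, hw, polar_comm, polar12 hΦ, polar_comm, polar12 hΦ,
      single_dotProduct, single_dotProduct, Pi.single_eq_same, Pi.single_eq_of_ne h01] at h3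
    have h4 := congrArg (fun z => (Φ z).2 i1) h3
    simp at h4
  have hrule := fun ω => mrule_hom (Ω := Ω) hIH e f hN hne hker hperf hs hnc hcl hex hx hcov hnorm ω
  -- the members centralising the image
  have hcent : ∀ i, (∀ s, x i * f s = f s * x i) → ∃ a b : F,
      (∀ z, (M i).1 (Φ.symm (z, 0)) = a • Φ.symm (z, 0)) ∧ ∀ y, (M i).1 (Φ.symm (0, y)) = b • Φ.symm (0, y) :=
    fun i hc => scal12 hΦ (by rw [Fintype.card_fin]; omega) (hlin i) (hi1 i) (hi2 i)
      (cent_slE hΦ hρ (hl i) hperf hc)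
  have hw' : polar Q (Φ.symm (Pi.single i0 1, 0)) (Φ.symm (0, Pi.single i1 (-1))) = 0 := by
    rw [polar12 hΦ, single_dotProduct, Pi.single_eq_of_ne h01, mul_zero]
  refine hLR {i : ι // ∀ s, x i * f s = f s * x i} (y := fun j => x j.1) (L := fun j => M j.1) (s := fun j => r j.1)
    (fun j => hl j.1) (fun j => hx.prime j.1) ?_ (fun j => hx.pow j.1) (fun j => hx.ne j.1)
    (fun i j => hx.comm i.1 j.1) (sing1 hΦ _) (sing2 hΦ _) hw' ?_ ?_ ?_ ?_
  · rintro ⟨i, hc⟩ hrp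
    obtain ⟨a, b, h1, h2⟩ := hcent i hc
    obtain ⟨c, hc0, hc'⟩ := (hl i).pow_scal hG hρ (hx.pow i)
    have hp : p.Prime := by rw [← hrp]; exact hx.prime i
    have := Fact.mk hp
    have e1 : a ^ r i = c := by
      have h3 := pow_scal_on (hlin i) (h1 (Pi.single i0 1)) (r i)
      rw [hc'] at h3
      have h4 := congrArg (fun z => (Φ z).1 i0) h3
      simpa using h4.symm
    have e2 : b ^ r i = c := by
      have h3 := pow_scal_on (hlin i) (h2 (Pi.single i0 1)) (r i)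
      rw [hc'] at h3
      have h4 := congrArg (fun z => (Φ z).2 i0) h3
      simpa using h4.symm
    have hrp' : r i = p := hrp
    have e3 : a = b := by
      have h3 : (a - b) ^ p = 0 := by
        rw [sub_pow_char, ← hrp', e1, e2, sub_self]
      exact sub_eq_zero.1 (pow_eq_zero_iff hp.ne_zero |>.1 h3)
    have ha0 : a ≠ 0 := by
      rintro rfl
      rw [zero_pow (hx.prime i).ne_zero] at e1
      exact hc0 e1.symm
    apply hx.ne i
    rw [(hl i).eq_one_iff hG hE hρ]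
    refine ⟨a, ha0, fun v => ?_⟩
    rw [split Φ v, add_of_mem (M i).2, h1, h2, ← e3, smul_add]
  · intro h
    rw [LinearEquiv.map_eq_zero_iff] at h
    have h1 := congrArg (fun z => z.1 i0) h
    simp at h1
  · intro a h
    have h1 := congrArg (fun z => (Φ z).2 i1) h
    simp at h1
  · rintro ⟨i, hc⟩ v hv
    obtain ⟨a, b, h1, h2⟩ := hcent i hc
    obtain ⟨c, d, rfl⟩ := Submodule.mem_span_pair.1 hv
    refine Submodule.mem_span_pair.2 ⟨c * a, d * b, ?_⟩
    rw [add_of_mem (M i).2, hlin i, hlin i, h1, h2, smul_smul, smul_smul]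
  · intro ω
    rcases hrule ω with h | ⟨i, h1, h2⟩
    · left
      have h3 := h (SpecialLinearGroup.transvection h01 1)
      have h4 : slE hΦ (SpecialLinearGroup.transvection h01 1) = AutOrth.SemiSim.sg Q _ _ (sing1 hΦ _) hw' :=
        Subtype.ext (slL_transvection hΦ h01 1 (sing1 hΦ _) hw')
      rw [← h4]
      exact h3
    · exact Or.inr ⟨⟨i, h1⟩, h2⟩

/-- **BOX B**. -/
theorem box_B (hG : Good Q) (hE : Env G Ω N) (hρ : Rep Q N ρ) (hIH : IH (Nat.card (P Q)))
    {p : ℕ} [CharP F p] {ι : Type} [Finite ι] {x : ι → G} {M : ι → Gam Q} {r : ι → ℕ}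
    (hl : ∀ i, Lf ρ (x i) (M i)) (hlin : ∀ i, IsLin (M i)) (hx : PF x r) (hcov : Cov Ω x)
    (h8 : 8 ≤ Module.finrank F V) (h82 : ¬ (Nat.card F = 2 ∧ Module.finrank F V = 8))
    (W W' : Submodule F V) (hWW : IsCompl W W') (hW : ∀ v ∈ W, Q v = 0) (hW' : ∀ v ∈ W', Q v = 0)
    (hi : ∀ i, ∀ v ∈ W, (M i).1 v ∈ W) (hi' : ∀ i, ∀ v ∈ W', (M i).1 v ∈ W') : False :=
  box_B_of hG hE hρ hIH (p := p)
    (fun _ _ _ _ _ h1 h2 h3 h4 h5 h6 _ _ hu hw huw hu0 hind hL hc =>
      Cfsg.Agent.H297.RC.box_LR (Ω := Ω) hG hE hρ h1 h2 h3 h4 h5 h6 hu hw huw hu0 hind hL hc)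
    hl hlin hx hcov h8 h82 W W' hWW hW hW' hi hi'

end final

end Cfsg.Agent.H179.RC
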