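import Cfsg.Agent.H93.RC.Defs
import Cfsg.Agent.LieClassical.SLGen

/-!
# S3510, box B: `SL(W)` in the group `E Q` of a form with two complementary totally singular subspaces
-/

set_option autoImplicit false
open Cfsg

namespace Cfsg.Agent.H179.RC

open QuadraticMap MulAction Matrix
open Cfsg.Agent.LieClassical.OrthCore Cfsg.Agent.LieClassical.OrthTrans
open Cfsg.Agent.LieClassical.OrthSimple Cfsg.Agent.ClassicalGeometry.OrthSemi
open Cfsg.Agent.ClassicalGeometry.OrthAut1 Cfsg.Agent.H106.RC Cfsg.Agent.H93.RC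
open Cfsg.Agent.LieClassical.SLGen

/-! ### coordinates -/

section coord

variable {F V : Type*} [Field F] [AddCommGroup V] [Module F V] {Q : QuadraticForm F V}

/-- hyperbolic coordinates -/
def HC (Q : QuadraticForm F V) {κ : Type*} [Fintype κ] (Φ : V ≃ₗ[F] (κ → F) × (κ → F)) : Prop :=
  ∀ v, Q v = (Φ v).1 ⬝ᵥ (Φ v).2

theorem HC.polar {κ : Type*} [Fintype κ] {Φ : V ≃ₗ[F] (κ → F) × (κ → F)} (h : HC Q Φ) (v w : V) :
    polar Q v w = (Φ v).1 ⬝ᵥ (Φ w).2 + (Φ w).1 ⬝ᵥ (Φ v).2 := by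
  simp only [QuadraticMap.polar, h _, map_add, Prod.fst_add, Prod.snd_add, add_dotProduct, dotProduct_add]
  ring

theorem polar_sing {W : Submodule F V} (hW : ∀ v ∈ W, Q v = 0) {v w : V} (hv : v ∈ W) (hw : w ∈ W) :
    polar Q v w = 0 := by
  rw [QuadraticMap.polar, hW _ (W.add_mem hv hw), hW _ hv, hW _ hw]
  ring

/-- existence of hyperbolic coordinates -/
theorem exists_HC [FiniteDimensional F V] (hQ : Nondeg Q) (W W' : Submodule F V) (hWW : IsCompl W W')
    (hW : ∀ v ∈ W, Q v = 0) (hW' : ∀ v ∈ W', Q v = 0) :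
    ∃ (k : ℕ) (Φ : V ≃ₗ[F] (Fin k → F) × (Fin k → F)), HC Q Φ ∧ Module.finrank F V = 2 * k ∧
      (∀ v, v ∈ W ↔ (Φ v).2 = 0) ∧ ∀ v, v ∈ W' ↔ (Φ v).1 = 0 := by
  classical
  -- the general inequality of dimensions
  have key : ∀ W W' : Submodule F V, IsCompl W W' → (∀ v ∈ W, Q v = 0) → (∀ v ∈ W', Q v = 0) →
      Module.finrank F W' ≤ Module.finrank F W := by
    intro W W' hWW hW hW'
    let f : W' →ₗ[F] Module.Dual F W :=
      { toFun := fun w' => (polarBilin Q (w' : V)).comp W.subtype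
        map_add' := fun a b => by
          ext w
          show polarBilin Q ((a + b : W') : V) w = _
          rw [Submodule.coe_add, map_add]
          rfl
        map_smul' := fun c a => by
          ext w
          show polarBilin Q ((c • a : W') : V) w = _
          rw [Submodule.coe_smul, map_smul]
          rfl }
    have hf : Function.Injective f := by
      rw [injective_iff_map_eq_zero]
      intro w' h0
      have h1 : (w' : V) = 0 := by
        apply hQ
        intro v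
        have hv : v ∈ W ⊔ W' := by rw [hWW.sup_eq_top]; trivial
        obtain ⟨a, ha, b, hb, rfl⟩ := Submodule.mem_sup.1 hv
        rw [polar_add_right, polar_sing hW' w'.2 hb, add_zero]
        have := DFunLike.congr_fun h0 (⟨a, ha⟩ : W)
        exact this
      exact Subtype.ext h1
    have h2 := LinearMap.finrank_le_finrank_of_injective hf
    rwa [Subspace.dual_finrank_eq] at h2
  have hdim : Module.finrank F W' = Module.finrank F W :=
    le_antisymm (key W W' hWW hW hW') (key W' W hWW.symm hW' hW)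
  have hsum := Submodule.finrank_add_eq_of_isCompl hWW
  let b : Module.Basis (Fin (Module.finrank F W)) F W := Module.finBasis F W
  let pr : V →ₗ[F] W := W.projectionOnto W' hWW
  let Ψ : V →ₗ[F] (Fin (Module.finrank F W) → F) × (Fin (Module.finrank F W) → F) :=
    LinearMap.prod (b.equivFun.toLinearMap ∘ₗ pr) (LinearMap.pi fun i => polarBilin Q (b i : V))
  have hΨ1 : ∀ v, (Ψ v).1 = b.equivFun (pr v) := fun v => rfl
  have hΨ2 : ∀ v i, (Ψ v).2 i = polar Q (b i : V) v := fun v i => rfl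
  have hprW : ∀ v : V, v ∈ W → ((pr v : W) : V) = v := by
    intro v hv
    have := Submodule.projectionOnto_apply_left hWW ⟨v, hv⟩
    exact congrArg Subtype.val this
  have hprW' : ∀ v : V, v ∈ W' → pr v = 0 := by
    intro v hv
    exact Submodule.projectionOnto_apply_right hWW ⟨v, hv⟩
  have hdec : ∀ v : V, v - (pr v : W) ∈ W' := by
    intro v
    have h1 : pr (v - (pr v : W)) = 0 := by
      rw [map_sub]
      apply Subtype.ext
      rw [Submodule.coe_sub, hprW _ (pr v).2, sub_self]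
      rfl
    exact (Submodule.projectionOnto_apply_eq_zero_iff hWW).1 h1
  have hW0 : ∀ v ∈ W, (Ψ v).2 = 0 := by
    intro v hv
    funext i
    rw [hΨ2]
    exact polar_sing hW (b i).2 hv
  have hbas : ∀ w ∈ W, ∀ v : V, polar Q w v = (Ψ w).1 ⬝ᵥ (Ψ v).2 := by
    intro w hw v
    have h1 : (w : V) = ∑ i, (Ψ w).1 i • (b i : V) := by
      have h2 := b.sum_equivFun (pr w)
      have h3 := congrArg (Subtype.val : W → V) h2
      rw [hprW w hw, AddSubmonoidClass.coe_finsetSum] at h3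
      exact h3.symm
    conv_lhs => rw [h1]
    have h4 : ∀ s : Finset (Fin (Module.finrank F W)),
        polar Q (∑ i ∈ s, (Ψ w).1 i • (b i : V)) v = ∑ i ∈ s, (Ψ w).1 i * polar Q (b i : V) v := by
      intro s
      induction s using Finset.induction_on with
      | empty => simp [QuadraticMap.polar]
      | insert i s hi ih =>
        rw [Finset.sum_insert hi, Finset.sum_insert hi, polar_add_left, ih, polar_smul_left, smul_eq_mul]
    rw [h4]
    rfl
  have hinj' : ∀ v ∈ W', (Ψ v).2 = 0 → v = 0 := by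
    intro v hv h0
    apply hQ
    intro z
    have hz : z ∈ W ⊔ W' := by rw [hWW.sup_eq_top]; trivial
    obtain ⟨a, ha, c, hc, rfl⟩ := Submodule.mem_sup.1 hz
    rw [polar_add_right, polar_sing hW' hv hc, add_zero, polar_comm, hbas a ha, h0, dotProduct_zero]
  have hΨinj : Function.Injective Ψ := by
    rw [injective_iff_map_eq_zero]
    intro v h0
    have h1 : pr v = 0 := by
      have h2 : (Ψ v).1 = 0 := by rw [h0]; rfl
      rw [hΨ1] at h2
      exact (LinearEquiv.map_eq_zero_iff _).1 h2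
    have h3 := hdec v
    rw [h1, Submodule.coe_zero, sub_zero] at h3
    exact hinj' v h3 (by rw [h0]; rfl)
  have hfin : Module.finrank F V = Module.finrank F ((Fin (Module.finrank F W) → F) × (Fin (Module.finrank F W) → F)) := by
    rw [Module.finrank_prod, Module.finrank_fin_fun]
    omega
  refine ⟨Module.finrank F W, LinearEquiv.ofInjectiveOfFinrankEq Ψ hΨinj hfin, ?_, by omega, ?_, ?_⟩
  · intro v
    show Q v = (Ψ v).1 ⬝ᵥ (Ψ v).2
    have h2 : (Ψ ((pr v : W) : V)).1 = (Ψ v).1 := by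
      rw [hΨ1, hΨ1]
      congr 1
      apply Subtype.ext
      exact hprW _ (pr v).2
    rw [← h2, ← hbas _ (pr v).2]
    have h3 : ∀ a d : V, a ∈ W → Q d = 0 → a + d = v → Q v = polar Q a v := by
      intro a d ha hd h
      rw [← h, Q_add, hW _ ha, hd, polar_add_right, polar_sing hW ha ha]
      ring
    exact h3 _ (v - (pr v : W)) (pr v).2 (hW' _ (hdec v)) (by abel)
  · intro v
    show v ∈ W ↔ (Ψ v).2 = 0
    refine ⟨fun h => hW0 v h, fun h => ?_⟩
    have h1 : (Ψ (v - (pr v : W))).2 = 0 := by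
      rw [map_sub, Prod.snd_sub, h, hW0 _ (pr v).2, sub_zero]
    have h2 := hinj' _ (hdec v) h1
    rw [sub_eq_zero] at h2
    rw [h2]
    exact (pr v).2
  · intro v
    show v ∈ W' ↔ (Ψ v).1 = 0
    refine ⟨fun h => ?_, fun h => ?_⟩
    · rw [hΨ1, hprW' v h, map_zero]
    · rw [hΨ1, LinearEquiv.map_eq_zero_iff] at h
      have h3 := hdec v
      rwa [h, Submodule.coe_zero, sub_zero] at h3

end coord

/-! ### the embedding of `SL` -/

section slq

variable {F V : Type*} [Field F] [AddCommGroup V] [Module F V] {Q : QuadraticForm F V}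
  {κ : Type*} [Fintype κ] [DecidableEq κ]

theorem val_mul_inv (M : SpecialLinearGroup κ F) : M.1 * (M⁻¹).1 = 1 := congrArg Subtype.val (mul_inv_cancel M)

theorem val_inv_mul (M : SpecialLinearGroup κ F) : (M⁻¹).1 * M.1 = 1 := congrArg Subtype.val (inv_mul_cancel M)

theorem val_inv_mul_rev (M N : SpecialLinearGroup κ F) : ((M * N)⁻¹).1 = (N⁻¹).1 * (M⁻¹).1 :=
  congrArg Subtype.val (mul_inv_rev M N)

/-- `(x, y) ↦ (A x, A⁻ᵀ y)` in the coordinates `Φ` -/
def slF (Φ : V ≃ₗ[F] (κ → F) × (κ → F)) (A : SpecialLinearGroup κ F) : V ≃ₗ[F] V where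
  toFun v := Φ.symm (A.1 *ᵥ (Φ v).1, ((A⁻¹).1)ᵀ *ᵥ (Φ v).2)
  map_add' v w := by
    rw [← map_add, map_add Φ]
    congr 1
    refine Prod.ext ?_ ?_
    · exact Matrix.mulVec_add _ _ _
    · exact Matrix.mulVec_add _ _ _
  map_smul' c v := by
    rw [RingHom.id_apply, LinearEquiv.symm_apply_eq]
    simp only [map_smul, LinearEquiv.apply_symm_apply]
    refine Prod.ext ?_ ?_
    · exact Matrix.mulVec_smul _ _ _
    · exact Matrix.mulVec_smul _ _ _
  invFun v := Φ.symm ((A⁻¹).1 *ᵥ (Φ v).1, (A.1)ᵀ *ᵥ (Φ v).2)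
  left_inv v := by
    rw [LinearEquiv.symm_apply_eq, LinearEquiv.apply_symm_apply]
    refine Prod.ext ?_ ?_
    · show (A⁻¹).1 *ᵥ (A.1 *ᵥ (Φ v).1) = (Φ v).1
      rw [Matrix.mulVec_mulVec, val_inv_mul, Matrix.one_mulVec]
    · show (A.1)ᵀ *ᵥ (((A⁻¹).1)ᵀ *ᵥ (Φ v).2) = (Φ v).2
      rw [Matrix.mulVec_mulVec, ← Matrix.transpose_mul, val_inv_mul, Matrix.transpose_one, Matrix.one_mulVec]
  right_inv v := by
    rw [LinearEquiv.symm_apply_eq, LinearEquiv.apply_symm_apply]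
    refine Prod.ext ?_ ?_
    · show A.1 *ᵥ ((A⁻¹).1 *ᵥ (Φ v).1) = (Φ v).1
      rw [Matrix.mulVec_mulVec, val_mul_inv, Matrix.one_mulVec]
    · show ((A⁻¹).1)ᵀ *ᵥ ((A.1)ᵀ *ᵥ (Φ v).2) = (Φ v).2
      rw [Matrix.mulVec_mulVec, ← Matrix.transpose_mul, val_mul_inv, Matrix.transpose_one, Matrix.one_mulVec]

theorem slF_apply (Φ : V ≃ₗ[F] (κ → F) × (κ → F)) (A : SpecialLinearGroup κ F) (v : V) :
    Φ (slF Φ A v) = (A.1 *ᵥ (Φ v).1, ((A⁻¹).1)ᵀ *ᵥ (Φ v).2) :=
  LinearEquiv.apply_symm_apply _ _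

/-- the homomorphism -/
def slL (Φ : V ≃ₗ[F] (κ → F) × (κ → F)) : SpecialLinearGroup κ F →* (V ≃ₗ[F] V) where
  toFun A := slF Φ A
  map_one' := by
    apply LinearEquiv.ext
    intro v
    apply Φ.injective
    rw [slF_apply, inv_one]
    refine Prod.ext ?_ ?_
    · exact Matrix.one_mulVec _
    · show ((1 : SpecialLinearGroup κ F).1)ᵀ *ᵥ (Φ v).2 = (Φ v).2
      have : (1 : SpecialLinearGroup κ F).1 = 1 := rfl
      rw [this, Matrix.transpose_one, Matrix.one_mulVec]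
  map_mul' A B := by
    apply LinearEquiv.ext
    intro v
    apply Φ.injective
    rw [LinearEquiv.mul_apply, slF_apply, slF_apply, slF_apply]
    refine Prod.ext ?_ ?_
    · show (A * B).1 *ᵥ (Φ v).1 = A.1 *ᵥ (B.1 *ᵥ (Φ v).1)
      rw [Matrix.mulVec_mulVec]
      rfl
    · show (((A * B)⁻¹).1)ᵀ *ᵥ (Φ v).2 = ((A⁻¹).1)ᵀ *ᵥ (((B⁻¹).1)ᵀ *ᵥ (Φ v).2)
      rw [val_inv_mul_rev, Matrix.transpose_mul, Matrix.mulVec_mulVec]

theorem slL_apply (Φ : V ≃ₗ[F] (κ → F) × (κ → F)) (A : SpecialLinearGroup κ F) (v : V) :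
    Φ (slL Φ A v) = (A.1 *ᵥ (Φ v).1, ((A⁻¹).1)ᵀ *ᵥ (Φ v).2) :=
  LinearEquiv.apply_symm_apply _ _

theorem trans_mulVec {i j : κ} (h : i ≠ j) (c : F) (v : κ → F) :
    (SpecialLinearGroup.transvection h c).1 *ᵥ v = v + (c * v j) • Pi.single i (1 : F) :=
  transvection_smul h c v

theorem trans_inv_mulVec {i j : κ} (h : i ≠ j) (c : F) (v : κ → F) :
    (((SpecialLinearGroup.transvection h c)⁻¹).1)ᵀ *ᵥ v = v - (c * v i) • Pi.single j (1 : F) := by
  rw [SpecialLinearGroup.transvection_inv, SpecialLinearGroup.transvection_coe,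
    Matrix.transpose_add, Matrix.transpose_one, Matrix.transpose_single, Matrix.add_mulVec, Matrix.one_mulVec,
    Matrix.single_mulVec]
  funext k
  by_cases hk : k = j
  · subst hk
    simp [sub_eq_add_neg]
  · simp [hk, Function.update]

theorem slL_transvection {Φ : V ≃ₗ[F] (κ → F) × (κ → F)} (hΦ : HC Q Φ) {i j : κ} (h : i ≠ j) (c : F)
    (hu : Q (Φ.symm (Pi.single i 1, 0)) = 0)
    (hw : polar Q (Φ.symm (Pi.single i 1, 0)) (Φ.symm (0, Pi.single j (-c))) = 0) :
    slL Φ (SpecialLinearGroup.transvection h c) =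
      siegel Q (Φ.symm (Pi.single i 1, 0)) (Φ.symm (0, Pi.single j (-c))) hu hw := by
  apply LinearEquiv.ext
  intro v
  apply Φ.injective
  rw [siegel_apply, slL_apply, trans_mulVec, trans_inv_mulVec, hΦ.polar, hΦ.polar, hΦ (Φ.symm (0, _))]
  have e1 : (Pi.single j (-c) : κ → F) ⬝ᵥ (Φ v).1 = -c * (Φ v).1 j := by
    rw [single_dotProduct]
  have e2 : (Pi.single i 1 : κ → F) ⬝ᵥ (Φ v).2 = (Φ v).2 i := by
    rw [single_dotProduct, one_mul]
  simp only [map_sub, map_add, map_smul, LinearEquiv.apply_symm_apply, zero_dotProduct, dotProduct_zero,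
    add_zero, zero_add, zero_mul, zero_smul, sub_zero, e2]
  rw [dotProduct_comm, e1]
  refine Prod.ext ?_ ?_
  · funext k
    simp
  · funext k
    by_cases hk : k = j
    · subst hk
      simp
      ring
    · simp [hk]

omit [DecidableEq κ] in
theorem sing1 {Φ : V ≃ₗ[F] (κ → F) × (κ → F)} (hΦ : HC Q Φ) (x : κ → F) : Q (Φ.symm (x, 0)) = 0 := by
  rw [hΦ, LinearEquiv.apply_symm_apply, dotProduct_zero]

omit [DecidableEq κ] in
theorem sing2 {Φ : V ≃ₗ[F] (κ → F) × (κ → F)} (hΦ : HC Q Φ) (y : κ → F) : Q (Φ.symm (0, y)) = 0 := by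
  rw [hΦ, LinearEquiv.apply_symm_apply, zero_dotProduct]

omit [DecidableEq κ] in
theorem polar12 {Φ : V ≃ₗ[F] (κ → F) × (κ → F)} (hΦ : HC Q Φ) (x y : κ → F) :
    polar Q (Φ.symm (x, 0)) (Φ.symm (0, y)) = x ⬝ᵥ y := by
  rw [hΦ.polar, LinearEquiv.apply_symm_apply, LinearEquiv.apply_symm_apply, zero_dotProduct, add_zero]

theorem slL_mem_E {Φ : V ≃ₗ[F] (κ → F) × (κ → F)} (hΦ : HC Q Φ) (A : SpecialLinearGroup κ F) :
    slL Φ A ∈ E Q := by
  have h1 : (⊤ : Subgroup (SpecialLinearGroup κ F)) ≤ (E Q).comap (slL Φ) := by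
    rw [← closure_transvections, Subgroup.closure_le]
    rintro _ ⟨i, j, h, c, rfl⟩
    have hw : polar Q (Φ.symm (Pi.single i 1, 0)) (Φ.symm (0, Pi.single j (-c))) = 0 := by
      rw [polar12 hΦ, single_dotProduct, Pi.single_eq_of_ne h, mul_zero]
    rw [SetLike.mem_coe, Subgroup.mem_comap, slL_transvection hΦ h c (sing1 hΦ _) hw]
    exact siegel_mem_E _ hw
  exact h1 (Subgroup.mem_top A)

/-- the embedding `SL κ F →* E Q` -/
def slE {Φ : V ≃ₗ[F] (κ → F) × (κ → F)} (hΦ : HC Q Φ) : SpecialLinearGroup κ F →* ↥(E Q) :=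
  (slL Φ).codRestrict _ (slL_mem_E hΦ)

theorem slE_coe {Φ : V ≃ₗ[F] (κ → F) × (κ → F)} (hΦ : HC Q Φ) (A : SpecialLinearGroup κ F) :
    (slE hΦ A : V ≃ₗ[F] V) = slL Φ A := rfl

theorem slE_apply {Φ : V ≃ₗ[F] (κ → F) × (κ → F)} (hΦ : HC Q Φ) (A : SpecialLinearGroup κ F) (v : V) :
    Φ ((slE hΦ A : V ≃ₗ[F] V) v) = (A.1 *ᵥ (Φ v).1, ((A⁻¹).1)ᵀ *ᵥ (Φ v).2) := slL_apply Φ A v

theorem slE_injective {Φ : V ≃ₗ[F] (κ → F) × (κ → F)} (hΦ : HC Q Φ) : Function.Injective (slE hΦ) := by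
  intro A B hAB
  apply smul_ext
  intro x
  have h1 := slE_apply hΦ A (Φ.symm (x, 0))
  have h2 := slE_apply hΦ B (Φ.symm (x, 0))
  rw [← hAB, h1] at h2
  have h3 := congrArg Prod.fst h2
  rw [LinearEquiv.apply_symm_apply] at h3
  exact h3

/-- an isometry which is trivial on the first summand and preserves the second one is trivial -/
theorem eq_one_of_fix {Φ : V ≃ₗ[F] (κ → F) × (κ → F)} (hΦ : HC Q Φ) {g : V ≃ₗ[F] V} (hg : g ∈ O Q)
    (h1 : ∀ x, g (Φ.symm (x, 0)) = Φ.symm (x, 0)) (h2 : ∀ y, (Φ (g (Φ.symm (0, y)))).1 = 0) : g = 1 := by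
  have h3 : ∀ y, g (Φ.symm (0, y)) = Φ.symm (0, y) := by
    intro y
    apply Φ.injective
    rw [LinearEquiv.apply_symm_apply]
    refine Prod.ext (h2 y) ?_
    funext i
    have h4 := polar_map hg (Φ.symm (Pi.single i 1, 0)) (Φ.symm (0, y))
    rw [h1, hΦ.polar, polar12 hΦ, LinearEquiv.apply_symm_apply, single_dotProduct, single_dotProduct, one_mul,
      one_mul, dotProduct_zero, add_zero] at h4
    exact h4
  apply LinearEquiv.ext
  intro v
  have h5 : v = Φ.symm ((Φ v).1, 0) + Φ.symm (0, (Φ v).2) := by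
    rw [← map_add, Prod.mk_add_mk, add_zero, zero_add, Prod.mk.eta, LinearEquiv.symm_apply_apply]
  rw [h5, map_add, h1, h3]
  rfl

end slq

end Cfsg.Agent.H179.RC
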